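import Cfsg.Agent.H293.ExcG

/-!
# A component `Sp₆(2)` of the fixed subgroup of an involutory automorphism of an exceptional group of odd characteristic

* `exc_Sp` : impossible.
-/

set_option autoImplicit false
set_option linter.unusedSectionVars false

namespace Cfsg.Agent.H293

open Cfsg Subgroup Cfsg.Lie

universe u v

namespace Cfg

/-- the odd primes whose square divides the order -/
theorem eq_three' {p : ℕ} (hp : p.Prime) (hp2 : p ≠ 2) (h : p ^ 2 ∣ 1451520) : p = 3 := by
  by_contra h3
  have h1 : (1451520 : ℕ) = 2 ^ 9 * (3 ^ 4 * 35) := by norm_num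
  rw [h1] at h
  have h2 : p ^ 2 ∣ 35 := by
    refine Nat.Coprime.dvd_of_dvd_mul_left ?_ (Nat.Coprime.dvd_of_dvd_mul_left ?_ h)
    · exact Nat.Coprime.pow _ _ ((Nat.coprime_primes hp Nat.prime_three).2 h3)
    · exact Nat.Coprime.pow _ _ ((Nat.coprime_primes hp Nat.prime_two).2 hp2)
  have h4 : p ≤ 5 := by
    have := Nat.le_of_dvd (by norm_num) h2
    nlinarith
  have h5 := hp.two_le
  interval_cases p <;> revert h2 <;> decide

theorem le_four {k : ℕ} (h : 3 ^ k ∣ 1451520) : k ≤ 4 := by
  by_contra hk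
  have h1 : (3 : ℕ) ^ 5 ∣ 1451520 := (pow_dvd_pow 3 (by omega)).trans h
  revert h1
  decide

variable {X : Type u} [Group X] [Finite X] {α : MulAut X} {A : Subgroup X}

/-- **`Sp₆(2)` in an exceptional group of odd characteristic.** -/
theorem exc_Sp [IsSimpleGroup X] (h : Cfg α A) {p : ℕ} (hp : p.Prime) (hp2 : p ≠ 2)
    (hX : IsExceptionalChevChar p X ∨ IsTwistedE6D4Char p X ∨ Lie.IsoRee X)
    (hc : Nat.card (↥A ⧸ center ↥A) = 1451520) (hn : Nat.card (MulAut (↥A ⧸ center ↥A)) ∣ 1451520) : False := by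
  have hdvd := card_quot_dvd A
  rw [hc] at hdvd
  rw [← or_assoc] at hX
  rcases hX with hX | hX
  · rcases h.exc_cases hp hp2 hX with h7 | ⟨K, _, _, _, hK3, ⟨f⟩, hK⟩ | ⟨K, _, _, _, q, hq, hK, ⟨f⟩, hq4⟩
    · have h1 := h7.trans hn
      have h3 := eq_three' hp hp2 ((pow_dvd_pow p (by norm_num)).trans h1)
      subst h3
      exact absurd (le_four h1) (by norm_num)
    · have : Fact p.Prime := ⟨hp⟩
      obtain ⟨m, hm, hKm⟩ := card_pow (K := K) (p := p)
      have h2 : Fintype.card K ^ 2 ∣ 1451520 := by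
        rcases hK with hK | ⟨hK, -⟩
        · exact ((pow_dvd_pow _ (by norm_num)).trans hK).trans hn
        · exact hK.trans hn
      have h3 := eq_three' hp hp2 (by
        refine (pow_dvd_pow_of_dvd ?_ 2).trans h2
        rw [hKm]
        exact dvd_pow_self p (by omega))
      subst h3
      rw [hKm, ← pow_mul] at h2
      have h4 := le_four h2
      have hm3 : m = 1 ∨ m = 2 := by omega
      rw [Nat.card_congr f.toEquiv, card_G, hKm] at hdvd
      rcases hm3 with rfl | rfl
      · revert hdvd
        decide +kernel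
      · revert hdvd
        decide +kernel
    · have : Fact p.Prime := ⟨hp⟩
      obtain ⟨m, hm, hKm⟩ := card_pow (K := K) (p := p)
      obtain ⟨g, hg, hqg⟩ : ∃ g : ℕ, 1 ≤ g ∧ q = p ^ g := by
        have h1 : q ∣ p ^ m := by rw [← hKm, hK]; exact dvd_pow_self q (by norm_num)
        obtain ⟨j, -, hj⟩ := (Nat.dvd_prime_pow hp).1 h1
        refine ⟨j, ?_, hj⟩
        by_contra hlt
        have hj0 : j = 0 := by omega
        rw [hj0, pow_zero] at hj
        exact absurd hq.one_lt (by omega)
      have h2 := hq4.trans hn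
      have h3 := eq_three' hp hp2 (by
        refine Dvd.dvd.trans ?_ h2
        rw [hqg, ← pow_mul]
        exact pow_dvd_pow p (by omega))
      subst h3
      rw [hqg, ← pow_mul] at h2
      have h4 := le_four h2
      have hg1 : g = 1 := by omega
      subst hg1
      rw [pow_one] at hqg
      subst hqg
      rw [Nat.card_congr f.toEquiv, (OrdDiv.table.{0}).td4 K 3 hq hK] at hdvd
      revert hdvd
      decide +kernel
  · obtain ⟨K, _, _, m, hm, hK, ⟨f⟩⟩ := hX
    rw [Nat.card_congr f.toEquiv, (OrdDiv.table.{0}).ree K m hm hK] at hdvd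
    exact ree_sixteen m (Dvd.dvd.trans (by decide) hdvd)

end Cfg

end Cfsg.Agent.H293
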